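import Mathlib
import Cfsg.Agent.Lib.Count.Frobenius

/-! P. Hall's theorem on the number of solutions of `x ^ n = 1` in a coset of a normal subgroup. -/

set_option autoImplicit false

namespace CfsgLib.FrobN

open Subgroup

variable {G : Type*} [Group G]

theorem mul_pow_eq_one [Finite G] {U : Subgroup G} {p c n : ℕ} (hp : p.Prime)
    (hU : Nat.card U = p ^ c) (hn : p ^ c ∣ n) {x u : G} (hx : x ∈ normalizer (U : Set G))
    (hxn : x ^ n = 1) (hu : u ∈ U) : (u * x) ^ n = 1 := by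
  classical
  have := Fintype.ofFinite U
  let σ : U → U := fun v => ⟨u * x * v * x⁻¹, by
    rw [mul_assoc, mul_assoc, ← mul_assoc x]
    exact U.mul_mem hu ((mem_normalizer_iff.1 hx _).1 v.2)⟩
  have hσ : ∀ k : ℕ, ((σ^[k] 1 : U) : G) = (u * x) ^ k * (x ^ k)⁻¹ := fun k => by
    induction k with
    | zero => simp
    | succ k ih =>
      rw [Function.iterate_succ_apply']
      show u * x * _ * x⁻¹ = _
      rw [ih, pow_succ' (u * x), pow_succ' x]
      group
  have h1 : (u * x) ^ n ∈ U := by simpa [hσ, hxn] using (σ^[n] 1).2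
  have h2 : Function.IsPeriodicPt σ (n * p ^ c) 1 := Subtype.ext (by
    rw [hσ, pow_mul, pow_mul, hxn, one_pow, inv_one, mul_one, ← hU]
    exact congrArg Subtype.val (pow_card_eq_one' (x := (⟨_, h1⟩ : U))))
  rcases Nat.eq_zero_or_pos n with rfl | hn0
  · exact pow_zero _
  have h3 := Function.minimalPeriod_pos_of_mem_periodicPts
    (Function.mk_mem_periodicPts (Nat.mul_pos hn0 (Nat.pow_pos hp.pos)) h2)
  have h4 : Function.minimalPeriod σ 1 ≤ p ^ c := by
    rw [← hU, Nat.card_eq_fintype_card]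
    exact Function.minimalPeriod_le_card
  have h5 := h2.minimalPeriod_dvd
  obtain ⟨j, l, hl, e⟩ := Nat.exists_eq_pow_mul_and_not_dvd h3.ne' p hp.ne_one
  have hc := (Nat.Prime.coprime_iff_not_dvd hp).2 hl
  have h6 : Function.minimalPeriod σ 1 ∣ n := by
    rw [e] at h4 h5 h3 ⊢
    refine Nat.Coprime.mul_dvd_of_dvd_of_dvd (hc.pow_left _) ((pow_dvd_pow p ?_).trans hn)
      ((hc.symm.pow_right c).dvd_of_dvd_mul_right ((dvd_mul_left _ _).trans h5))
    exact (Nat.pow_le_pow_iff_right hp.one_lt).1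
      ((Nat.le_mul_of_pos_right _ (Nat.pos_of_mul_pos_left h3)).trans h4)
  have h7 := congrArg Subtype.val (Function.isPeriodicPt_iff_minimalPeriod_dvd.2 h6).eq
  simpa [hσ, hxn] using h7

/-- The largest subgroup of `Q` normalized by `x`. -/
def core (Q : Subgroup G) (x : G) : Subgroup G := ⨅ i : ℤ, Q.comap (MulAut.conj (x ^ i)).toMonoidHom

theorem mem_core {Q : Subgroup G} {x v : G} : v ∈ core Q x ↔ ∀ i : ℤ, x ^ i * v * (x ^ i)⁻¹ ∈ Q :=
  mem_iInf

theorem core_le (Q : Subgroup G) (x : G) : core Q x ≤ Q := fun v hv => by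
  simpa using mem_core.1 hv 0

theorem mem_norm_core (Q : Subgroup G) (x : G) : x ∈ normalizer (core Q x : Set G) := by
  refine mem_normalizer_iff.2 fun v => ?_
  simp only [mem_core]
  refine ⟨fun h i => ?_, fun h i => ?_⟩
  · convert h (i + 1) using 1
    group
  · convert h (i - 1) using 1
    group

theorem le_core {Q B : Subgroup G} {x : G} (h : B ≤ Q) (hx : x ∈ normalizer (B : Set G)) :
    B ≤ core Q x := fun v hv =>
  mem_core.2 fun i => h ((mem_normalizer_iff.1 (zpow_mem hx i) v).1 hv)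

theorem core_mul {Q : Subgroup G} {x u : G} (hu : u ∈ core Q x) : core Q (u * x) = core Q x := by
  have h1 : core Q x ≤ core Q (u * x) :=
    le_core (core_le _ _) (mul_mem (le_normalizer hu) (mem_norm_core _ _))
  refine le_antisymm (le_core (core_le _ _) ?_) h1
  simpa using mul_mem (inv_mem (le_normalizer (h1 hu))) (mem_norm_core Q (u * x))

theorem conj_mem_core {Q : Subgroup G} {x q v : G} (hq : q ∈ Q) (hv : v ∈ core Q x) :
    q * v * q⁻¹ ∈ core Q (q * x * q⁻¹) := mem_core.2 fun i => by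
  convert Q.mul_mem (Q.mul_mem hq (mem_core.1 hv i)) (Q.inv_mem hq) using 1
  rw [conj_zpow]
  group

theorem mem_core_of_comm [Finite G] {Q : Subgroup G} {x s : G} (hs : s ∈ Q)
    (h : s * x * s⁻¹ * x⁻¹ ∈ core Q x) : s ∈ core Q x := by
  have h1 : core Q x ⊔ zpowers s ≤ Q := sup_le (core_le _ _) (zpowers_le.2 hs)
  refine le_core h1 (mem_normalizer_fintype fun v hv => ?_) (mem_sup_right (mem_zpowers s))
  have h2 : core Q x ⊔ zpowers s ≤ (core Q x ⊔ zpowers s).comap (MulAut.conj x).toMonoidHom := by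
    refine sup_le (fun w hw => mem_sup_left ((mem_normalizer_iff.1 (mem_norm_core Q x) w).1 hw))
      (zpowers_le.2 ?_)
    show x * s * x⁻¹ ∈ core Q x ⊔ zpowers s
    convert mul_mem (inv_mem (mem_sup_left (T := zpowers s) h))
      (mem_sup_right (S := core Q x) (mem_zpowers s)) using 1
    group
  exact h2 hv

theorem card_dvd_of_core [Finite G] (Q : Subgroup G) (X : Set G)
    (h1 : ∀ q ∈ Q, ∀ x ∈ X, q * x * q⁻¹ ∈ X) (h2 : ∀ x ∈ X, ∀ u ∈ core Q x, u * x ∈ X) :
    Nat.card Q ∣ X.ncard := by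
  let φ : G → Set G := fun x => {y | ∃ q ∈ Q, q * y * q⁻¹ * x⁻¹ ∈ core Q x}
  have s1 : ∀ x y, y ∈ φ x → φ y ⊆ φ x := by
    rintro x y ⟨q, hq, h⟩ z ⟨r, hr, h'⟩
    refine ⟨q * r, mul_mem hq hr, ?_⟩
    have h3 := conj_mem_core hq h'
    rw [← inv_mul_cancel_right (q * y * q⁻¹) x, core_mul h] at h3
    convert mul_mem h3 h using 1
    group
  have s0 : ∀ x, x ∈ φ x := fun x => ⟨1, one_mem _, by simp⟩
  have s2 : ∀ x y, y ∈ φ x → x ∈ φ y := by
    rintro x y ⟨q, hq, h⟩
    refine ⟨q⁻¹, inv_mem hq, ?_⟩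
    have h3 := inv_mem h
    rw [← core_mul h, inv_mul_cancel_right] at h3
    convert conj_mem_core (inv_mem hq) h3 using 1
    · group
    · group
  refine Count.dvd_ncard_of_fibers X φ _ fun x hx => ?_
  have e : {y | y ∈ X ∧ φ y = φ x} = φ x := by
    ext y
    refine ⟨fun h => h.2 ▸ s0 y, fun h => ⟨?_, (s1 _ _ h).antisymm (s1 _ _ (s2 _ _ h))⟩⟩
    obtain ⟨q, hq, h⟩ := h
    convert h1 _ (inv_mem hq) _ (h2 x hx _ h) using 1
    group
  rw [e]
  let f : Q × core Q x → G := fun a => (a.1 : G)⁻¹ * (a.2 * x) * a.1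
  have e2 := Count.ncard_preimage_of_fibers (φ x) f (Nat.card (core Q x)) (by
    rintro y ⟨q, hq, h⟩
    have hy : core Q (q * y * q⁻¹) = core Q x := by
      rw [← inv_mul_cancel_right (q * y * q⁻¹) x, core_mul h]
    let g : core Q x → Q × core Q x := fun s => (⟨s * q, mul_mem (core_le _ _ s.2) hq⟩,
      ⟨s * (q * y * q⁻¹ * x⁻¹) * (x * (s : G)⁻¹ * x⁻¹), mul_mem (mul_mem s.2 h)
        ((mem_normalizer_iff.1 (mem_norm_core Q x) _).1 (inv_mem s.2))⟩)
    have hg : Function.Injective g := fun s t e =>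
      Subtype.ext (mul_right_cancel (congrArg (fun a : Q × core Q x => (a.1 : G)) e))
    rw [← Set.ncard_univ, ← Set.ncard_image_of_injective _ hg]
    congr 1
    ext ⟨r, a⟩
    simp only [Set.mem_ofPred_eq, Set.image_univ, Set.mem_range]
    refine ⟨fun e => ?_, ?_⟩
    · have e3 : (a : G) = r * y * (r : G)⁻¹ * x⁻¹ := by
        rw [← e]; simp only [f]; group
      refine ⟨⟨r * q⁻¹, hy ▸ mem_core_of_comm (mul_mem r.2 (inv_mem hq)) ?_⟩, ?_⟩
      · rw [hy]
        convert mul_mem a.2 (inv_mem h) using 1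
        rw [e3]
        group
      · refine Prod.ext (Subtype.ext ?_) (Subtype.ext ?_)
        · simp [g]
        · simp only [g, e3]
          group
    · rintro ⟨s, e⟩
      rw [← e]
      simp only [f, g]
      group)
  have e3 : {a | f a ∈ φ x} = Set.univ := Set.eq_univ_of_forall fun a =>
    ⟨a.1, a.1.2, by simp [f, mul_assoc]⟩
  rw [e3, Set.ncard_univ, Nat.card_prod] at e2
  exact (Nat.eq_of_mul_eq_mul_right Nat.card_pos e2).dvd

/-- P. Hall's theorem. -/
theorem dvd_ncard_coset [Finite G] (N : Subgroup G) [N.Normal] (c : G ⧸ N) {n d : ℕ} (hn : d ∣ n)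
    (hN : d ∣ Nat.card N) : d ∣ {x : G | x ^ n = 1 ∧ (x : G ⧸ N) = c}.ncard := by
  refine (Nat.dvd_iff_prime_pow_dvd_dvd _ _).2 fun p k hp hk => ?_
  have := Fact.mk hp
  obtain ⟨Q, hQ⟩ := Sylow.exists_subgroup_card_pow_prime (G := N) p (hk.trans hN)
  rw [← card_map_of_injective N.subtype_injective] at hQ
  have hle := map_subtype_le Q
  generalize Q.map N.subtype = Q at hQ hle
  have h1 : ∀ q ∈ Q, (q : G ⧸ N) = 1 := fun q hq => (QuotientGroup.eq_one_iff q).2 (hle hq)
  rw [← hQ]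
  refine card_dvd_of_core Q _ (fun q hq x hx => ⟨by rw [conj_pow, hx.1]; group, ?_⟩)
    fun x hx u hu => ⟨?_, ?_⟩
  · simp [h1 q hq, hx.2]
  · obtain ⟨j, -, hj⟩ := (Nat.dvd_prime_pow hp).1 (hQ ▸ card_dvd_of_le (core_le Q x))
    exact mul_pow_eq_one hp hj (hj ▸ (card_dvd_of_le (core_le Q x)).trans (hQ ▸ hk.trans hn))
      (mem_norm_core Q x) hx.1 hu
  · simp [h1 u (core_le _ _ hu), hx.2]

end CfsgLib.FrobN
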