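import Mathlib
import Cfsg.Agent.Lib.FrobN.Coset
import Cfsg.Agent.Lib.Perm.SpecPSL2B
import Cfsg.Agent.Lib.SmallSimple.Basic
import Cfsg.Agent.Lib.MathRec.Nse

/-! The Frobenius conjecture: counting lemmas for a simple counterexample. -/

set_option autoImplicit false

namespace CfsgLib.FrobN

open Subgroup CfsgLib.BSW CfsgLib.Perm.SpecPSL

/-- The number of solutions of `x ^ n = 1`. -/
noncomputable def L (G : Type*) [Group G] (n : ℕ) : ℕ := {x : G | x ^ n = 1}.ncard

/-- `n` is a proper divisor of the order with exactly `n` solutions. -/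
structure Bad (G : Type*) [Group G] (n : ℕ) : Prop where
  dvd : n ∣ Nat.card G
  eq : L G n = n
  ne_one : n ≠ 1
  ne_card : n ≠ Nat.card G

variable {G : Type*} [Group G] [Finite G] {n : ℕ}

omit [Finite G] in
theorem L_equiv {H : Type*} [Group H] (e : G ≃* H) (n : ℕ) : L G n = L H n :=
  Set.ncard_congr (fun x _ => e x) (fun x hx => by
    rw [Set.mem_ofPred_eq, ← map_pow, show x ^ n = 1 from hx, map_one]) (fun _ _ _ _ h => e.injective h)
    fun y hy => ⟨e.symm y, by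
      rw [Set.mem_ofPred_eq, ← map_pow, show y ^ n = 1 from hy, map_one], e.apply_symm_apply y⟩

omit [Finite G] in
theorem Bad.of_equiv {H : Type*} [Group H] (h : Bad G n) (e : G ≃* H) : Bad H n :=
  ⟨Nat.card_congr e.toEquiv ▸ h.dvd, L_equiv e n ▸ h.eq, h.ne_one, Nat.card_congr e.toEquiv ▸ h.ne_card⟩

theorem L_pos : 0 < L G n := (Set.ncard_pos).2 ⟨1, one_pow n⟩

theorem gcd_le_L : Nat.gcd n (Nat.card G) ≤ L G n := by
  refine Nat.le_of_dvd L_pos ?_
  simpa [L] using Count.frobenius n ({1} : Set G) (by simp)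

omit [Finite G] in
theorem L_sub (H : Subgroup G) (n : ℕ) : {x : G | x ∈ H ∧ x ^ n = 1}.ncard = L H n := by
  rw [L, ← Set.ncard_image_of_injective _ H.subtype_injective]
  congr 1
  ext x
  exact ⟨fun h => ⟨⟨x, h.1⟩, Subtype.ext h.2, rfl⟩, by
    rintro ⟨y, h, rfl⟩; exact ⟨y.2, congrArg Subtype.val h⟩⟩

theorem conj_count {S T : Set G} {H : Subgroup G} (h1 : ∀ g, ∀ x ∈ S, g * x * g⁻¹ ∈ T)
    (h2 : ∀ g, ∀ x ∈ S, g * x * g⁻¹ ∈ S → g ∈ H) :
    Nat.card G * S.ncard ≤ Nat.card H * T.ncard := by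
  classical
  have := Fintype.ofFinite G
  have := Finset.card_le_mul_card_image_of_maps_to (f := fun a : G × G => a.1 * a.2 * a.1⁻¹)
    (s := Finset.univ ×ˢ S.toFinset) (t := T.toFinset) (fun a ha => by
      simpa using h1 _ _ (by simpa using ha)) (Nat.card H) fun b _ => by
      rcases (Finset.univ ×ˢ S.toFinset).filter (fun a : G × G => a.1 * a.2 * a.1⁻¹ = b)
        |>.eq_empty_or_nonempty with e | ⟨c, hc⟩
      · simp [e]
      simp only [Finset.mem_filter, Finset.mem_product, Finset.mem_univ, Set.mem_toFinset,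
        true_and] at hc
      rw [← Nat.card_eq_finsetCard]
      refine Nat.card_le_card_of_injective (fun a => (⟨c.1⁻¹ * a.1.1, ?_⟩ : H)) fun a a' e => ?_
      · have ha := a.2
        simp only [Finset.mem_filter, Finset.mem_product, Finset.mem_univ, Set.mem_toFinset,
          true_and] at ha
        refine h2 _ _ ha.1 ?_
        convert hc.1 using 1
        rw [mul_inv_rev, inv_inv, mul_assoc, mul_assoc, ← mul_assoc a.1.2, ← mul_assoc, ← mul_assoc,
          mul_assoc c.1⁻¹, mul_assoc c.1⁻¹, ← mul_assoc a.1.1, ha.2, ← hc.2]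
        group
      · have e1 : a.1.1 = a'.1.1 := mul_left_cancel (congrArg Subtype.val e)
        have e2 := (Finset.mem_filter.1 a.2).2.trans (Finset.mem_filter.1 a'.2).2.symm
        rw [e1] at e2
        exact Subtype.ext (Prod.ext e1 (mul_left_cancel (mul_right_cancel e2)))
  rwa [Finset.card_product, Finset.card_univ, ← Nat.card_eq_fintype_card, ← Set.ncard_eq_toFinset_card',
    ← Set.ncard_eq_toFinset_card'] at this

theorem conj_cover {S T : Set G} {H : Subgroup G} (h1 : ∀ x ∈ T, ∃ g, g * x * g⁻¹ ∈ S)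
    (h2 : ∀ g ∈ H, ∀ x ∈ S, g * x * g⁻¹ ∈ S) :
    Nat.card H * T.ncard ≤ Nat.card G * S.ncard := by
  classical
  have := Fintype.ofFinite G
  have h3 := Finset.mul_card_image_le_card_of_maps_to (f := fun a : G × G => a.1⁻¹ * a.2 * a.1)
    (s := (Finset.univ ×ˢ S.toFinset).filter fun a => a.1⁻¹ * a.2 * a.1 ∈ T) (t := T.toFinset)
    (fun a ha => by simpa using (Finset.mem_filter.1 ha).2) (Nat.card H) fun b hb => by
      rw [Set.mem_toFinset] at hb
      obtain ⟨g, hg⟩ := h1 b hb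
      rw [← Nat.card_eq_finsetCard]
      refine Nat.card_le_card_of_injective (fun a : H => ⟨(a * g, a * (g * b * g⁻¹) * (a : G)⁻¹), ?_⟩)
        fun a a' e => Subtype.ext (mul_right_cancel (congrArg (fun a => a.1.1) e))
      have e : ((a : G) * g)⁻¹ * (a * (g * b * g⁻¹) * (a : G)⁻¹) * (a * g) = b := by group
      simp only [Finset.mem_filter, Finset.mem_product, Finset.mem_univ, Set.mem_toFinset, true_and, e]
      exact ⟨⟨h2 _ a.2 _ hg, hb⟩, trivial⟩
  have h4 := h3.trans (Finset.card_filter_le _ _)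
  rwa [Finset.card_product, Finset.card_univ, ← Nat.card_eq_fintype_card, ← Set.ncard_eq_toFinset_card',
    ← Set.ncard_eq_toFinset_card'] at h4

theorem ti_bound {A H : Subgroup G} (h : ∀ g, ∀ x ∈ A, x ≠ 1 → g * x * g⁻¹ ∈ A → g ∈ H) (n : ℕ) :
    Nat.card G * (Nat.gcd n (Nat.card A) - 1) ≤ Nat.card H * (L G n - 1) := by
  have h1 := conj_count (S := {x : G | x ∈ A ∧ x ^ n = 1} \ {1}) (T := {x : G | x ^ n = 1} \ {1}) (H := H)
    (fun g x hx => ⟨by rw [Set.mem_ofPred_eq, conj_pow, hx.1.2]; group, by simpa using hx.2⟩)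
    fun g x hx hg => h g x hx.1.1 hx.2 hg.1.1
  rw [Set.ncard_sdiff_singleton_of_mem (by simp), Set.ncard_sdiff_singleton_of_mem (by simp),
    L_sub] at h1
  exact (Nat.mul_le_mul_left _ (Nat.sub_le_sub_right gcd_le_L 1)).trans h1

theorem sc_bound {A : Subgroup G} (h : SelfCent A) {a m c : ℕ} (ha : Nat.card A = a)
    (hG : Nat.card G = a * m) (hc : c < a) (hm : (a : ℤ) ∣ m - c) (h1 : 1 < a) (n : ℕ) :
    m * (Nat.gcd n a - 1) ≤ c * (L G n - 1) := by
  have e1 := card_eq_three A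
  have e2 := relIndex_dvd_of_selfCent h
  have e3 := h.dvd_index
  have e4 := ti_bound (fun g x hx h1 hg => h.mem_norm hx h1 hg) n
  rw [← PF.card_mul_relIndex (BG.normG A)] at e4
  rw [ha] at e1 e2 e3 e4
  rw [hG, mul_assoc] at e1 e4
  replace e1 := Nat.eq_of_mul_eq_mul_left (by omega) e1
  rw [eq_of_mod (c := c) e1 e3 (Nat.pos_of_ne_zero index_ne_zero_of_finite)
    (by have := Nat.le_of_dvd (by omega) e2; omega) hc hm, mul_assoc] at e4
  exact Nat.le_of_mul_le_mul_left e4 (by omega)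

omit [Finite G] in
theorem sc_cong {A : Subgroup G} (h : SelfCent A) (hn : n.Coprime (Nat.card A)) :
    Nat.card A ∣ L G n - 1 := by
  rw [L, ← Set.ncard_sdiff_singleton_of_mem (a := 1) (by simp)]
  refine Frob.card_dvd_ncard_of_free_conj (fun g _ x hx => ⟨by
    rw [Set.mem_ofPred_eq, conj_pow, show x ^ n = 1 from hx.1]; group, by simpa using hx.2⟩)
    fun y hy s hs e => ?_
  by_contra h1
  exact hs.2 (orderOf_eq_one_iff.1 (Nat.eq_one_of_dvd_coprimes hn (orderOf_dvd_of_pow_eq_one hs.1)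
    (A.orderOf_dvd_natCard (h y hy h1 ▸ mem_centralizer_singleton_iff.2 e))))

theorem part_bound {k m c j : ℕ} (hkm : k.Coprime m) {y : G} (h1 : y ≠ 1) (hy : y ^ k = 1)
    (hc : Nat.card (centralizer ({y} : Set G)) ∣ c) (hG : Nat.card G = c * j) :
    L G m + j * Nat.gcd m c ≤ L G (k * m) := by
  obtain ⟨s, s1, s2⟩ := Nat.chineseRemainder hkm 1 0
  have hs : ∀ z : G, z * y = y * z → z ^ m = 1 → (y * z) ^ s = y := fun z hz hm => by
    rw [Commute.mul_pow hz.symm, pow_eq_pow_of_modEq s1 hy, pow_eq_pow_of_modEq s2 hm]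
    simp
  have h2 := conj_count (S := (y * ·) '' {z | z ∈ centralizer ({y} : Set G) ∧ z ^ m = 1})
    (T := {x : G | x ^ (k * m) = 1} \ {x | x ^ m = 1}) (H := centralizer ({y} : Set G)) (by
      rintro g _ ⟨z, ⟨hz, hm⟩, rfl⟩
      rw [mem_centralizer_singleton_iff] at hz
      refine ⟨?_, fun e => h1 ?_⟩
      · rw [Set.mem_ofPred_eq, conj_pow, Commute.mul_pow hz.symm, pow_mul, hy, mul_comm k, pow_mul, hm]
        simp
      · rw [← hs z hz hm, pow_eq_pow_of_modEq s2 (by simpa [conj_pow] using e), pow_zero]) (by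
      rintro g _ ⟨z, ⟨hz, hm⟩, rfl⟩ ⟨w, ⟨hw, hm'⟩, e⟩
      rw [mem_centralizer_singleton_iff] at hz hw ⊢
      have := congrArg (· ^ s) e
      simp only [conj_pow, hs z hz hm, hs w hw hm'] at this
      exact mul_inv_eq_iff_eq_mul.1 this.symm)
  have h3 : {x : G | x ^ m = 1} ⊆ {x : G | x ^ (k * m) = 1} := fun x hx => by
    rw [Set.mem_ofPred_eq, mul_comm, pow_mul, show x ^ m = 1 from hx, one_pow]
  rw [Set.ncard_image_of_injective _ (mul_right_injective y), L_sub, Set.ncard_sdiff h3] at h2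
  have h4 : L G m ≤ L G (k * m) := Set.ncard_le_ncard h3
  obtain ⟨d, rfl⟩ := hc
  have h5 := gcd_le_L (G := centralizer ({y} : Set G)) (n := m)
  have h6 : Nat.gcd m (Nat.card (centralizer ({y} : Set G)) * d) ≤
      Nat.gcd m (Nat.card (centralizer ({y} : Set G))) * d := by
    refine Nat.le_of_dvd (Nat.mul_pos (Nat.gcd_pos_of_pos_right _ Nat.card_pos) (Nat.pos_of_ne_zero ?_)) ?_
    · rintro rfl
      exact (Nat.card_pos (α := G)).ne' (by simpa using hG)
    · rw [← Nat.gcd_mul_right]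
      exact Nat.gcd_dvd_gcd_of_dvd_left _ (dvd_mul_right _ _)
  rw [hG, mul_assoc, mul_assoc] at h2
  have h7 : d * (j * _) ≤ L G (k * m) - L G m := Nat.le_of_mul_le_mul_left h2 Nat.card_pos
  have h8 := Nat.mul_le_mul_left j (h6.trans (Nat.mul_le_mul_right d h5))
  have h9 : j * (L (centralizer ({y} : Set G)) m * d) = d * (j * L (centralizer ({y} : Set G)) m) := by
    ring
  omega

namespace Bad

variable (h : Bad G n)
include h

theorem pos : 0 < n := Nat.pos_of_dvd_of_pos h.dvd Nat.card_pos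

theorem not_dvd [IsSimpleGroup G] {H : Subgroup G} (hH : H ≠ ⊤) : ¬ n ∣ Nat.card H := fun hd => by
  have h1 := gcd_le_L (G := H) (n := n)
  rw [Nat.gcd_eq_left hd, ← L_sub] at h1
  have h2 := Set.eq_of_subset_of_ncard_le (s := {x : G | x ∈ H ∧ x ^ n = 1}) (t := {x : G | x ^ n = 1})
    (fun x hx => hx.2) (h.eq.le.trans h1)
  obtain ⟨x, hx, x1⟩ := Set.exists_ne_of_one_lt_ncard (s := {x : G | x ^ n = 1})
    (h.eq.symm ▸ (show 1 < n by have := h.pos; have := h.ne_one; omega) :) 1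
  rcases H.normalCore_normal.eq_bot_or_eq_top with e | e
  · refine x1 (mem_bot.1 (e ▸ fun g => (h2.ge ?_).1))
    rw [Set.mem_ofPred_eq, conj_pow, show x ^ n = 1 from hx]
    group
  · exact hH (eq_top_iff.2 (e ▸ H.normalCore_le))

theorem not_pow [IsSimpleGroup G] {p k : ℕ} (hp : p.Prime) : ¬ n ∣ p ^ k := fun hd => by
  have := Fact.mk hp
  obtain ⟨j, -, rfl⟩ := (Nat.dvd_prime_pow hp).1 hd
  obtain ⟨H, hH⟩ := Sylow.exists_subgroup_card_pow_prime p h.dvd
  exact h.not_dvd (H := H) (fun e => h.ne_card (by rw [← hH, e, card_top])) hH.symm.dvd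

theorem exists_pow {r : ℕ} (hr : 1 < r) (hd : n * r ∣ Nat.card G) : ∃ x : G, x ^ (n * r) = 1 ∧ x ^ n ≠ 1 := by
  by_contra! hx
  have h1 := gcd_le_L (G := G) (n := n * r)
  have h2 : L G (n * r) ≤ L G n := Set.ncard_le_ncard hx
  rw [Nat.gcd_eq_left hd] at h1
  rw [h.eq] at h2
  have := h.pos
  nlinarith

omit h [Finite G] in
theorem pow_dvd {r k : ℕ} (hr : r.Prime) (hk : r ^ k ∣ n * r) {x : G} (h1 : x ^ (n * r) = 1)
    (h2 : x ^ n ≠ 1) : r ^ k ∣ orderOf x := by
  by_contra h3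
  refine h2 (orderOf_dvd_iff_pow_eq_one.1 ((Nat.dvd_iff_prime_pow_dvd_dvd _ _).2 fun q j hq hj => ?_))
  by_cases e : q = r
  · subst e
    have h4 : j + 1 ≤ k := by
      by_contra h4
      exact h3 ((pow_dvd_pow _ (by omega)).trans hj)
    exact Nat.dvd_of_mul_dvd_mul_right hr.pos (by rw [← pow_succ]; exact (pow_dvd_pow _ h4).trans hk)
  · exact (((Nat.coprime_primes hq hr).2 e).pow_left j).dvd_of_dvd_mul_right
      (hj.trans (orderOf_dvd_of_pow_eq_one h1))

theorem exists_order {r k : ℕ} (hr : r.Prime) (hd : n * r ∣ Nat.card G) (hk : r ^ k ∣ n * r) :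
    ∃ x : G, orderOf x = r ^ k := by
  obtain ⟨x, h1, h2⟩ := h.exists_pow hr.one_lt hd
  obtain ⟨c, hc⟩ := pow_dvd hr hk h1 h2
  have h0 : c ≠ 0 := by rintro rfl; exact (orderOf_pos x).ne' hc
  exact ⟨x ^ c, by rw [orderOf_pow' _ h0, hc, Nat.gcd_mul_left_left,
    Nat.mul_div_cancel _ (Nat.pos_of_ne_zero h0)]⟩

theorem not_prime [IsSimpleGroup G] (hG : ¬ IsMulCommutative G) {p : ℕ} (hp : p.Prime) :
    Nat.card G ≠ n * p := fun e => by
  have := Fact.mk hp
  obtain ⟨P⟩ : Nonempty (Sylow p G) := inferInstance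
  have hP : ∀ x : G, x ^ n ≠ 1 → ∃ g : G, g * x * g⁻¹ ∈ centralizer ((P : Subgroup G) : Set G) ∧
      IsCyclic (P : Subgroup G) := fun x hx => by
    obtain ⟨c, hc⟩ := pow_dvd hp (k := (Nat.card G).factorization p) (e ▸ Nat.ordProj_dvd _ _)
      (e ▸ pow_card_eq_one') hx
    have h0 : c ≠ 0 := by rintro rfl; exact (orderOf_pos x).ne' hc
    have h1 : Nat.card (zpowers (x ^ c)) = p ^ (Nat.card G).factorization p := by
      rw [Nat.card_zpowers, orderOf_pow' _ h0, hc, Nat.gcd_mul_left_left,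
        Nat.mul_div_cancel _ (Nat.pos_of_ne_zero h0)]
    obtain ⟨g, hg⟩ := MulAction.exists_smul_eq G (Sylow.ofCard _ h1) P
    have h2 : (P : Subgroup G) = zpowers ((g * x * g⁻¹) ^ c) := by
      rw [← hg, Sylow.coe_subgroup_smul, conj_pow]
      exact MonoidHom.map_zpowers (MulAut.conj g).toMonoidHom _
    rw [h2]
    refine ⟨g, ?_, inferInstance⟩
    rintro _ ⟨i, rfl⟩
    exact (((Commute.refl _).pow_left c).zpow_left i).eq
  obtain ⟨x, -, hx⟩ := h.exists_pow hp.one_lt e.symm.dvd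
  obtain ⟨-, -, hc⟩ := hP x hx
  have h1 := conj_cover (S := (centralizer ((P : Subgroup G) : Set G) : Set G) \ {x | x ∈ centralizer ((P : Subgroup G) : Set G) ∧ x ^ n = 1})
    (T := Set.univ \ {x | x ^ n = 1}) (H := normalizer ((P : Subgroup G) : Set G))
    (fun x hx => (hP x hx.2).imp fun g hg => ⟨hg.1, fun e => hx.2 (by simpa [conj_pow] using e.2)⟩)
    fun g hg x hx => ⟨BG.conj_mem_of_mem_norm (Core.normalizer_le_normalizer_centralizer _ hg) hx.1, fun e =>
      hx.2 ⟨hx.1, by simpa [conj_pow] using e.2⟩⟩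
  rw [Set.ncard_sdiff (Set.subset_univ _), Set.ncard_sdiff (fun x hx => hx.1), L_sub, Set.ncard_univ] at h1
  have h2 := gcd_le_L (G := centralizer ((P : Subgroup G) : Set G)) (n := n)
  have h3 : p ∣ Nat.card (centralizer ((P : Subgroup G) : Set G)) :=
    (P.dvd_card_of_dvd_card (e ▸ dvd_mul_left _ _)).trans (card_dvd_of_le (le_centralizer _))
  obtain ⟨c, hc⟩ := h3
  have h4 : c ∣ n := Nat.dvd_of_mul_dvd_mul_left hp.pos (by
    rw [← hc, mul_comm, ← e]; exact card_subgroup_dvd_card _)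
  have h5 : c ≤ Nat.gcd n (p * c) := Nat.le_of_dvd (Nat.gcd_pos_of_pos_left _ h.pos)
    (Nat.dvd_gcd h4 (dvd_mul_left _ _))
  refine SmallSimple.not_normalizer_le_centralizer hG P (e ▸ dvd_mul_left _ _)
    (eq_of_le_of_card_ge (centralizer_le_normalizer _) ?_).ge
  have h6 : (centralizer ((P : Subgroup G) : Set G) : Set G).ncard = p * c := hc
  have h7 : {x : G | x ^ n = 1}.ncard = n := h.eq
  rw [h6, h7, e] at h1
  rw [hc] at h2 ⊢
  obtain ⟨r, rfl⟩ : ∃ r, p = r + 1 := ⟨p - 1, by have := hp.pos; omega⟩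
  have h8 : 0 < n * r := Nat.mul_pos h.pos (by have := hp.one_lt; omega)
  refine Nat.le_of_mul_le_mul_right (le_trans ?_ (h1.trans ?_)) h8
  · rw [show n * (r + 1) - n = n * r by rw [mul_add_one, Nat.add_sub_cancel]]
  · calc _ ≤ n * (r + 1) * (r * c) := Nat.mul_le_mul_left _ (by rw [add_one_mul] at h5 h2 ⊢; omega)
      _ = _ := by ring

end Bad

end CfsgLib.FrobN
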