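import Mathlib
import Cfsg.Agent.Lib.FrobN.Basic
import Cfsg.Agent.Lib.Sz.Models
import Cfsg.Agent.Lib.Sz.Tori
import Cfsg.Agent.S3421

/-! The Frobenius conjecture for `PSL₂(q)` and `Sz(q)`. -/

set_option autoImplicit false

namespace CfsgLib.FrobN

open Subgroup CfsgLib.BSW CfsgLib.Perm.SpecPSL CfsgLib.Dickson Cfsg.Agent
open scoped MatrixGroups

theorem ar {y b a c n g : ℕ} (h : y * b * (g - 1) ≤ c * (n - 1)) (hn : n = y * a) (h0 : 0 < n)
    (hc : 0 < c) (hg : a ≤ g) : b * (a - 1) < c * a := by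
  subst hn
  have h1 : y * (b * (a - 1)) < y * (c * a) := by
    calc _ ≤ y * b * (g - 1) := by rw [← mul_assoc]; gcongr
      _ < c * (y * a) := h.trans_lt (by gcongr; omega)
      _ = _ := by ring
  exact Nat.lt_of_mul_lt_mul_left h1

theorem ar_three {b a : ℕ} (h : b * (a - 1) < 2 * a) (ha : 3 ≤ a) : b ≤ 2 := by
  obtain ⟨a, rfl⟩ := Nat.exists_eq_add_of_le' ha
  rw [show a + 3 - 1 = a + 2 by omega] at h
  nlinarith

theorem ar_five {b a : ℕ} (h : b * (a - 1) < 4 * a) (ha : 5 ≤ a) : b ≤ 4 := by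
  obtain ⟨a, rfl⟩ := Nat.exists_eq_add_of_le' ha
  rw [show a + 5 - 1 = a + 4 by omega] at h
  nlinarith

theorem odd_cases {a b : ℕ} (h : Odd (a * b)) : a = 1 ∨ 3 ≤ a := by
  obtain ⟨k, rfl⟩ := (Nat.odd_mul.1 h).1
  omega

theorem le_gcd {a n m : ℕ} (h0 : 0 < n) (h1 : a ∣ n) (h2 : a ∣ m) : a ≤ Nat.gcd n m :=
  Nat.le_of_dvd (Nat.gcd_pos_of_pos_left _ h0) (Nat.dvd_gcd h1 h2)

variable {G : Type*} [Group G] [Finite G] [IsSimpleGroup G] {n : ℕ}

theorem Bad.index (h : Bad G n) (hG : ¬ IsMulCommutative G) {b : ℕ} (e : Nat.card G = n * b) : 4 ≤ b := by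
  by_contra hb
  have := Nat.card_pos (α := G)
  obtain rfl | rfl | rfl | rfl : b = 0 ∨ b = 1 ∨ b = 2 ∨ b = 3 := by omega
  · omega
  · exact h.ne_card (by omega)
  · exact h.not_prime hG Nat.prime_two e
  · exact h.not_prime hG Nat.prime_three e

omit [IsSimpleGroup G] in
theorem sc_tri {a b c m : ℕ} (h : Tri G a b c) {g : G} (hg : orderOf g = a) (hG : Nat.card G = a * m)
    (hc : a.Coprime m) : SelfCent (zpowers g) :=
  selfCent_of_card_dvd inferInstance fun y hy h1 => by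
    rw [Nat.card_zpowers, hg]
    exact h.card_cent_dvd h1 (hg ▸ orderOf_dvd_of_mem_zpowers hy) hG hc

theorem not_bad_even (hG : ¬ IsMulCommutative G) {f k : ℕ} (hk : 2 ^ f = k + 1) (h1 : 3 ≤ k)
    (h : Tri G 2 k (k + 2)) (hc : Nat.card G = (k + 1) * (k * (k + 2))) {a b : G} (ha : orderOf a = k)
    (hb : orderOf b = k + 2) : ¬ Bad G n := fun B => by
  have h0 := B.pos
  have o1 : Odd k := Nat.coprime_two_left.1 h.ab
  have o2 : Odd (k + 2) := Nat.coprime_two_left.1 h.ac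
  have e1 : Nat.card G = k * ((k + 1) * (k + 2)) := by rw [hc]; ring
  have e2 : Nat.card G = (k + 2) * ((k + 1) * k) := by rw [hc]; ring
  have b1 := sc_bound (c := 2) (sc_tri h.rot ha e1 ((by simp : k.Coprime (k + 1)).mul_right h.bc))
    (by rw [Nat.card_zpowers, ha]) e1 (by omega) ⟨k + 3, by push_cast; ring⟩ (by omega) n
  have b2 := sc_bound (c := 2) (sc_tri h.rot.rot hb e2
    ((by simp : (k + 1 + 1).Coprime (k + 1)).mul_right h.bc.symm))
    (by rw [Nat.card_zpowers, hb]) e2 (by omega) ⟨k - 1, by push_cast; ring⟩ (by omega) n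
  obtain ⟨n1, m, ⟨c1, d1⟩, hm, e⟩ := exists_dvd_and_dvd_of_dvd_mul (hc ▸ B.dvd)
  obtain ⟨n2, n3, ⟨c2, d2⟩, ⟨c3, d3⟩, rfl⟩ := exists_dvd_and_dvd_of_dvd_mul hm
  rw [B.eq] at b1 b2
  have a1 := ar (y := n1 * n3) (b := c1 * c3) (a := n2) (by rw [d1, d3] at b1; convert b1 using 2; ring)
    (by rw [e]; ring) h0 two_pos (le_gcd h0 ⟨n1 * n3, by rw [e]; ring⟩ ⟨_, d2⟩)
  have a2 := ar (y := n1 * n2) (b := c1 * c2) (a := n3) (by
      rw [d1] at b2; convert b2 using 2; rw [d2]; ring)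
    (by rw [e]; ring) h0 two_pos (le_gcd h0 ⟨n1 * n2, by rw [e]; ring⟩ ⟨_, d3⟩)
  have p1 : 0 < c1 := Nat.pos_of_ne_zero (by rintro rfl; omega)
  have key : ∀ {x y : ℕ}, Odd (x * y) → c1 * y ≤ 2 → y = 1 := fun {x y} h1 h2 =>
    (odd_cases (mul_comm x y ▸ h1)).resolve_right fun h => by nlinarith
  rcases odd_cases (d3 ▸ o2) with rfl | h3
  · rcases odd_cases (d2 ▸ o1) with rfl | h2
    · exact B.not_pow Nat.prime_two ⟨c1, by rw [hk, d1, e]; ring⟩
    · have := key (d3 ▸ o2) (ar_three a1 h2)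
      omega
  have h4 := ar_three a2 h3
  obtain rfl := key (d2 ▸ o1) h4
  obtain rfl := key (d3 ▸ o2) (ar_three a1 (by omega))
  have := B.index hG (b := c1) (by rw [hc, e, d1, d3]; nth_rewrite 1 [d2]; ring)
  omega

theorem not_bad_odd {p q u τ : ℕ} (h : OddQ G p q u τ) {g r : G} (hg : orderOf g = u)
    (hr : orderOf r = τ) : ¬ Bad G n := fun B => by
  have h0 := B.pos
  have u3 := h.u3
  have t2 := h.t2
  have hs := h.sum
  have pm := h.pm
  have oq : Odd q := by obtain ⟨f, rfl⟩ := h.pw; exact (Nat.coprime_two_right.1 h.p2).pow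
  have e1 : Nat.card G = u * (2 * q * τ) := by rw [h.card]; ring
  have e2 : Nat.card G = q * (u * (2 * τ)) := by rw [h.card]; ring
  have b1 := sc_bound (c := 2) (sc_tri h.tri.rot hg e1 ((h.u2.mul_right h.qu.symm).mul_right h.tri.bc))
    (by rw [Nat.card_zpowers, hg]) e1 (by omega) (by
      rw [h.sum]
      rcases h.pm with e | rfl
      · exact ⟨4 * τ - 2, by rw [e]; push_cast; ring⟩
      · exact ⟨4 * u + 6, by push_cast; ring⟩) (by omega) n
  have hT : Nat.card (zpowers r) = τ := by rw [Nat.card_zpowers, hr]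
  have := Fact.mk Nat.prime_two
  obtain ⟨t, ot⟩ := exists_prime_orderOf_dvd_card' (G := zpowers r) 2 (hT ▸ h.te.two_dvd)
  rw [← orderOf_coe] at ot
  have hH := h.card_H inferInstance hT t.2 ot
  have b2 := ti_bound (fun g x hx h1 hg => h.ti inferInstance hT t.2 ot hx h1 hg) n
  rw [hH, hT, B.eq, show Nat.card G = 2 * τ * (q * u) by rw [h.card]; ring, mul_assoc] at b2
  replace b2 := Nat.le_of_mul_le_mul_left b2 (by omega)
  have b3 : τ ∣ n → q * u * (τ - 1) < n := fun hd => by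
    rw [Nat.gcd_eq_right hd] at b2
    omega
  obtain ⟨n1, m, ⟨c1, d1⟩, hm, e⟩ := exists_dvd_and_dvd_of_dvd_mul (e2 ▸ B.dvd)
  obtain ⟨n2, n3, ⟨c2, d2⟩, ⟨c3, d3⟩, rfl⟩ := exists_dvd_and_dvd_of_dvd_mul hm
  rw [B.eq] at b1
  have p1 : 0 < c1 := Nat.pos_of_ne_zero (by rintro rfl; omega)
  have p3 : 0 < c3 := Nat.pos_of_ne_zero (by rintro rfl; omega)
  obtain ⟨s, rfl⟩ : ∃ s, τ = s + 1 := ⟨τ - 1, by omega⟩
  rw [Nat.add_sub_cancel] at b3
  rcases odd_cases (d2 ▸ h.uo) with rfl | h2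
  · by_cases h1 : n1 = 1
    · refine B.not_dvd (H := centralizer {(t : G)}) (fun e => ?_) ⟨c3, by rw [hH, d3, e, h1]; ring⟩
      rw [e, card_top, e2] at hH
      nlinarith [Nat.mul_le_mul (show 5 ≤ q by omega) u3]
    obtain ⟨f, hf⟩ := h.pw
    obtain ⟨j, -, hj⟩ := (Nat.dvd_prime_pow h.hp).1 (hf ▸ ⟨_, d1⟩ : n1 ∣ p ^ f)
    have h3 : p ∣ n := e ▸ (hj ▸ dvd_pow_self p (by rintro rfl; exact h1 hj)).mul_right _
    have h4 := h.count_p.trans (Set.ncard_le_ncard (t := {x : G | x ^ n = 1} \ {1}) fun x hx =>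
      ⟨orderOf_dvd_iff_pow_eq_one.1 (hx.2.trans h3), hx.1⟩)
    rw [Set.ncard_sdiff_singleton_of_mem (by simp), show Set.ncard _ = n from B.eq] at h4
    have h5 := h.sq
    have h6 : q * (2 * (s + 1)) = n * (c1 * c3) := by rw [d3, e]; nth_rewrite 1 [d1]; ring
    have h7 : q * (q * (c1 * c3)) ≤ q * (2 * (s + 1)) := by
      rw [h6, ← mul_assoc]; exact Nat.mul_le_mul_right _ (by omega)
    replace h7 := Nat.le_of_mul_le_mul_left h7 (by omega)
    have h8 : c1 * c3 = 1 := by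
      by_contra h8
      have := Nat.mul_le_mul_left q (show 2 ≤ c1 * c3 by have := Nat.mul_pos p1 p3; omega)
      omega
    rw [h8, mul_one] at h6 h7
    have h9 := b3 ⟨q * 2, by rw [← h6]; ring⟩
    obtain rfl : s = u := by omega
    rw [← h6, mul_assoc] at h9
    have := Nat.lt_of_mul_lt_mul_left h9
    nlinarith
  have a1 := ar_three (ar (y := n1 * n3) (b := c1 * c3) (a := n2) (by
      convert b1 using 2
      calc _ = n1 * c1 * (n3 * c3) := by ring
        _ = _ := by rw [← d1, ← d3]; ring)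
    (by rw [e]; ring) h0 two_pos (le_gcd h0 ⟨n1 * n3, by rw [e]; ring⟩ ⟨_, d2⟩)) h2
  obtain rfl : c1 = 1 := (odd_cases (mul_comm n1 c1 ▸ d1 ▸ oq)).resolve_right fun h => by nlinarith
  obtain rfl | rfl : c3 = 1 ∨ c3 = 2 := by omega
  · have h3 := b3 ⟨n1 * n2 * 2, by rw [e, ← mul_one n3, ← d3]; ring⟩
    rw [mul_one] at d1 d3
    rw [e, ← d1, ← d3, d2, mul_assoc, mul_assoc] at h3
    replace h3 := Nat.lt_of_mul_lt_mul_left (Nat.lt_of_mul_lt_mul_left h3)
    rcases odd_cases (mul_comm n2 c2 ▸ d2 ▸ h.uo) with rfl | h4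
    · exact B.ne_card (by rw [e2, e, d1, d2, d3, mul_one])
    · have h5 := Nat.mul_le_mul h2 h4
      have h6 := Nat.mul_le_mul_right s h4
      omega
  · obtain ⟨j, m, hm', hj⟩ := Nat.exists_eq_two_pow_mul_odd (n := s + 1) (by omega)
    obtain rfl : n3 = s + 1 := by omega
    obtain ⟨x, hx⟩ := B.exists_order (k := j + 1) Nat.prime_two
      ⟨c2, by rw [e2, e, d1, d2]; ring⟩ ⟨n1 * n2 * m, by rw [e, hj]; ring⟩
    have h3 := h.tri.rot.rot.dvd_of_coprime hx.dvd (h.p2.symm.pow_left _) (h.u2.symm.pow_left _)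
    rw [hx, hj, pow_succ, Nat.mul_dvd_mul_iff_left (by positivity)] at h3
    exact Nat.not_even_iff_odd.2 hm' (even_iff_two_dvd.2 h3)

theorem not_bad_psl2 (hG : ¬ IsMulCommutative G) {F : Type*} [Field F] [Finite F] (hF : 4 ≤ Nat.card F)
    (e : G ≃* PSL(2, F)) : ¬ Bad G n := by
  have := Fintype.ofFinite F
  obtain ⟨p, hp⟩ := CharP.exists F
  obtain ⟨f, hpp, hf⟩ := FiniteField.card F p
  have := Fact.mk hpp
  rw [← Nat.card_eq_fintype_card] at hf
  have h1 : ∀ g : G, orderOf g ∣ p ∨ orderOf g * (pslPGL F).range.index ∣ Nat.card F - 1 ∨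
      orderOf g * (pslPGL F).range.index ∣ Nat.card F + 1 := fun g => by
    rw [← e.orderOf_eq]; exact S3421.psl_ord p _
  obtain ⟨⟨a, ha⟩, b, hb⟩ := S3421.psl_ex (F := F) p (by omega)
  rw [← e.symm.orderOf_eq] at ha hb
  generalize e.symm a = a at ha
  generalize e.symm b = b at hb
  have h2 := card_psl (K := F)
  rw [← Nat.card_congr e.toEquiv, ← index_psl] at h2
  have hpq : p ∣ Nat.card F := hf ▸ dvd_pow_self p f.ne_zero
  have hp1 : p.Coprime (Nat.card F - 1) := Nat.Coprime.coprime_dvd_left hpq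
    ((Nat.coprime_self_sub_right (by omega)).2 (Nat.coprime_one_right _))
  have hp2 : p.Coprime (Nat.card F + 1) := Nat.Coprime.coprime_dvd_left hpq (by simp)
  rcases Nat.even_or_odd (Nat.card F) with he | ho
  · obtain rfl : 2 = p := (Nat.prime_dvd_prime_iff_eq Nat.prime_two hpp).1
      (Nat.prime_two.dvd_of_dvd_pow (hf ▸ he.two_dvd))
    have hi := index_psl_even he
    rw [hi] at h1 h2 ha hb
    obtain ⟨k, hk⟩ : ∃ k, Nat.card F = k + 1 := ⟨Nat.card F - 1, by omega⟩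
    rw [hk] at h1 h2 hp1 hp2 ha hb
    rw [Nat.add_sub_cancel] at h1 hp1 ha
    exact not_bad_even hG (hf.symm.trans hk) (by omega)
      ⟨hp1, hp2, by simpa using hp1.symm, by simpa using h1⟩
      (by rw [← one_mul (Nat.card G), h2]; congr 1; exact Nat.sub_eq_of_eq_add (by ring))
      (a := a) (b := b) (by omega) (by omega)
  have hi := index_psl_odd ho
  rw [hi] at h1 h2 ha hb
  have hab : orderOf b = orderOf a + 1 := by omega
  have hT : Tri G p (orderOf a) (orderOf b) := ⟨hp1.coprime_dvd_right ⟨2, ha.symm⟩,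
    hp2.coprime_dvd_right ⟨2, hb.symm⟩, by simp [hab], fun g => by
      have := h1 g
      rwa [← ha, ← hb, Nat.mul_dvd_mul_iff_right two_pos, Nat.mul_dvd_mul_iff_right two_pos] at this⟩
  have h3 : Nat.card G = 2 * Nat.card F * orderOf a * orderOf b := by
    rw [show Nat.card F ^ 2 - 1 = (orderOf a * 2) * (orderOf b * 2) by
      rw [ha, hb]
      obtain ⟨k, hk⟩ : ∃ k, Nat.card F = k + 1 := ⟨Nat.card F - 1, by omega⟩
      rw [hk, Nat.add_sub_cancel]; exact Nat.sub_eq_of_eq_add (by ring)] at h2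
    linarith
  rcases Nat.even_or_odd (orderOf a) with h4 | h4
  · exact not_bad_odd (p := p) (q := Nat.card F) ⟨hpp, ⟨f, hf⟩, hT.swap, by omega, Or.inl hab,
      hab ▸ h4.add_one, h4, by omega, by rw [h3]; ring⟩ rfl rfl
  · exact not_bad_odd (p := p) (q := Nat.card F) ⟨hpp, ⟨f, hf⟩, hT, by omega, Or.inr hab,
      h4, hab ▸ h4.add_one, by obtain ⟨m, hm⟩ := h4; omega, h3⟩ rfl rfl

omit [IsSimpleGroup G] in
theorem sc_norm {A : Subgroup G} (h : Sz.SelfCent A) {m c : ℕ} (hG : Nat.card G = Nat.card A * m)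
    (hN : Nat.card (normalizer (A : Set G)) = c * Nat.card A) (n : ℕ) :
    m * (Nat.gcd n (Nat.card A) - 1) ≤ c * (L G n - 1) := by
  have := ti_bound (fun g x hx h1 hg => SelfCent.mem_norm h.2 hx h1 hg) n
  rw [hG, hN, mul_comm c, mul_assoc, mul_assoc] at this
  exact Nat.le_of_mul_le_mul_left this Nat.card_pos

theorem not_bad_sz (hG : ¬ IsMulCommutative G) {F : Type*} [Field F] [Fintype F] {m : ℕ} (hm : 1 ≤ m)
    (hF : Fintype.card F = 2 ^ (2 * m + 1)) (e : G ≃* Cfsg.Lie.Sz F (2 ^ (m + 1))) : ¬ Bad G n := fun B => by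
  have ht := Sz.exists_ne_zero_one hm hF
  rw [Sz.lieSz_eq hF] at e
  generalize Sz.tits hF = τ at e
  rw [← Nat.card_eq_fintype_card] at hF
  have h0 := B.pos
  have B' := B.of_equiv e
  obtain ⟨A, A', hA, hA', -, -, r, r', hc⟩ := Sz.Tits.exists_two_tori (τ := τ) hm hF
  have c0 := τ.card_grp
  have cG := Nat.card_congr e.toEquiv
  have cH := τ.card_H
  have o := Sz.Tits.odd_card_H (τ := τ)
  have ev : Even (Nat.card F) := by rw [hF]; exact (Nat.even_pow.2 ⟨even_two, by omega⟩)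
  have q8 : 2 ^ 3 ≤ Nat.card F := hF ▸ Nat.pow_le_pow_right two_pos (by omega)
  rw [← hc, ← cH] at c0
  have b0 := sc_norm (m := Nat.card F ^ 2 * (Nat.card A * Nat.card A')) (Sz.Tits.selfCent_H ht)
    (by rw [c0]; ring) (by rw [Sz.Tits.card_normalizer_H ht, cH]) n
  have b1 := sc_norm (m := Nat.card F ^ 2 * (Nat.card A' * Nat.card τ.H)) hA.selfCent
    (by rw [c0]; ring) (by rw [Sz.Tits.card_normalizer_eq, r]) n
  have b2 := sc_norm (m := Nat.card F ^ 2 * (Nat.card A * Nat.card τ.H)) hA'.selfCent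
    (by rw [c0]; ring) (by rw [Sz.Tits.card_normalizer_eq, r']) n
  have f1 := hA.five_le_card
  rw [B'.eq] at b0 b1 b2
  obtain ⟨k, n0, hk, ⟨c, d⟩, e⟩ := exists_dvd_and_dvd_of_dvd_mul (c0 ▸ B'.dvd)
  obtain ⟨k, l, ⟨x, dx⟩, hl, rfl⟩ := exists_dvd_and_dvd_of_dvd_mul hk
  obtain ⟨n1, n2, ⟨c1, d1⟩, ⟨c2, d2⟩, rfl⟩ := exists_dvd_and_dvd_of_dvd_mul hl
  have a0 := ar (y := k * (n1 * n2)) (b := x * (c1 * c2)) (a := n0) (by
      convert b0 using 2; rw [dx, d1, d2]; ring) e h0 two_pos (le_gcd h0 ⟨_, e.trans (mul_comm _ _)⟩ ⟨_, d⟩)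
  have a1 := ar (y := k * (n2 * n0)) (b := x * (c2 * c)) (a := n1) (by
      convert b1 using 2; rw [dx, d, d2]; ring) (by rw [e]; ring) h0 four_pos
    (le_gcd h0 ⟨k * (n2 * n0), by rw [e]; ring⟩ ⟨_, d1⟩)
  have a2 := ar (y := k * (n1 * n0)) (b := x * (c1 * c)) (a := n2) (by
      convert b2 using 2; rw [dx, d, d1]; ring) (by rw [e]; ring) h0 four_pos
    (le_gcd h0 ⟨k * (n1 * n0), by rw [e]; ring⟩ ⟨_, d2⟩)
  have five : ∀ {a b : ℕ}, a * b ∣ Nat.card F ^ 2 + 1 → a = 1 ∨ 5 ≤ a := fun {a b} h => by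
    rcases a with _ | _ | a
    · simp at h
    · exact .inl rfl
    · exact .inr (Sz.Tits.five_le_of_dvd ev ((dvd_mul_right _ _).trans h) (by omega))
  have v1 := d1 ▸ hA.card_dvd
  have v2 := d2 ▸ hA'.card_dvd
  have px : 0 < x := Nat.pos_of_ne_zero (by rintro rfl; simp at dx)
  have p1 := five (mul_comm n1 c1 ▸ v1)
  have p2 := five (mul_comm n2 c2 ▸ v2)
  rcases odd_cases (d ▸ o) with rfl | h3
  · have c7 : 7 ≤ c := by omega
    have k1 : ∀ {y : ℕ}, 0 < y → ¬ x * (y * c) ≤ 4 := fun h h' => by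
      nlinarith [Nat.mul_le_mul px (Nat.mul_le_mul h c7)]
    obtain rfl := (five v1).resolve_right fun h => k1 (by omega) (ar_five a1 h)
    obtain rfl := (five v2).resolve_right fun h => k1 (by omega) (ar_five a2 h)
    exact B.not_pow (k := (2 * m + 1) * 2) Nat.prime_two ⟨x, by rw [pow_mul, ← hF, dx, e]; ring⟩
  have h4 := ar_three a0 h3
  obtain rfl := p1.resolve_right fun h => by
    nlinarith [Nat.mul_le_mul px (Nat.mul_le_mul h (show 1 ≤ c2 by omega))]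
  obtain rfl := p2.resolve_right fun h => by nlinarith [Nat.mul_le_mul px h]
  have h5 := ar_five a1 (by omega)
  have h6 := B.index hG (b := x * c) (by
    rw [cG, c0, e, dx, d, d1, d2]; ring)
  rcases odd_cases (mul_comm n0 c ▸ d ▸ o) with rfl | h7
  · omega
  · obtain rfl | rfl : x = 1 ∨ x = 2 := by omega
    · obtain ⟨j, hj⟩ := (Nat.odd_mul.1 (d ▸ o)).2
      omega
    · omega

end CfsgLib.FrobN
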